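import Cfsg.Agent.H129.Co3.Gen
import Cfsg.Agent.H512.DFive.Conj

/-!
# S1920, case B: `E₆(q)`, `q ≡ 1 mod 4` (helper650)

* `t4_false` : no configuration if some `t` with `t² = z` is centralised by `C_G(z)`;
* `tG i` : the element `(1, -1, i)` on the parts of dimension `1, 10, 16` of the 27-dimensional module, `i² = -1`;
  `tG_mem`, `tG_sq : tG i * tG i = z0`, `tG_comm` : it is centralised by `C(z0)`;
* `no_e6_four` : no configuration in `E₆(q)`, `q ≡ 1 mod 4`.
-/

set_option autoImplicit false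

open Subgroup Module

universe u

namespace Cfsg.Agent.H650.Co3

open Cfsg.Agent.H13.Co3

section Abs

variable {G : Type*} [Group G] {P N0 : Subgroup G} {z s : G} {ψ : ↥(normalizer (P : Set G)) →* Equiv.Perm (Fin 6)}

/-- **No configuration if some `t` with `t² = z` is centralised by `C_G(z)`.** -/
theorem t4_false [Finite G] (C : CB P N0 z s ψ) {t : G} (ht : t * t = z) (hc : ∀ g, g * z = z * g → g * t = t * g) :
    False := by
  have hN : ∀ n ∈ N0, t * n = n * t := fun n hn => (hc n (C.z_cen n (C.NH hn))).symm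
  have htA : t ∈ AA C := comm_le_AA C hN
  have h2 : ∃ k, t ^ 2 ^ k = 1 := ⟨2, by
    have : t ^ 2 ^ 2 = (t * t) * (t * t) := by
      simp only [show (2 : ℕ) ^ 2 = 4 from rfl, pow_succ, pow_zero, one_mul, mul_assoc]
    rw [this, ht, C.z_sq]⟩
  have htN : t ∈ N0 := mem_N0 C htA h2 (K := {k | k * t = t * k}) (fun π hπ => by
    obtain ⟨g, hg, hgN, hgπ⟩ := exists_even C hπ
    exact ⟨g, hg, hc g (hgN z (C.PN C.zP)), hgπ⟩) fun k hk => Or.inl hk.symm
  obtain ⟨r, hr, -, hrs⟩ := exists_conj_s C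
  have hrt : r * t = t * r := hc r (C.z_cen r hr)
  obtain ⟨k, hk⟩ := mem_zpowers_iff.1 (C.cen t htN hN)
  have hrk : r * t * r⁻¹ = (z * s) ^ k := by
    rw [← hk, ← hrs, conj_zpow]
  have hzs : z * s = s * z := by rw [← C.s_sq, mul_assoc]
  have h3 : t = z ^ k * t := by
    conv_lhs => rw [← mul_inv_cancel_right t r, ← hrt, hrk]
    rw [(show Commute z s from hzs).mul_zpow, hk]
  have h4 : z ^ k = 1 := mul_eq_right.1 h3.symm
  have h5 : Even k := by
    by_contra hodd
    rw [Int.not_even_iff_odd] at hodd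
    obtain ⟨m, rfl⟩ := hodd
    apply C.z_ne
    have h6 : z ^ (2 : ℤ) = 1 := by
      rw [show (2 : ℤ) = ((2 : ℕ) : ℤ) from rfl, zpow_natCast, pow_two, C.z_sq]
    rwa [zpow_add, zpow_mul, h6, one_zpow, one_mul, zpow_one] at h4
  obtain ⟨m, rfl⟩ := h5
  apply C.z_ne
  have h7 : s ^ (m + m) = z ^ m := by
    rw [← C.s_sq, ← two_mul, zpow_mul]
    congr 1
    rw [show (2 : ℤ) = ((2 : ℕ) : ℤ) from rfl, zpow_natCast, pow_two]
  rw [← ht, ← hk, h7, ← zpow_add]
  exact h4

end Abs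

section Elt

open Cfsg Cfsg.Lie Matrix
open Cfsg.Agent.ChevalleyStructure.E6Min Cfsg.Agent.ChevalleyStructure.E6Min.Tables
  Cfsg.Agent.ChevalleyStructure.E6Min.Basic Cfsg.Agent.ChevalleyStructure.E6Min.Forms
  Cfsg.Agent.ChevalleyStructure.E6Min.Inv Cfsg.Agent.ChevalleyStructure.E6Min.Elim
  Cfsg.Agent.ChevalleyStructure.E6Min.Torus Cfsg.Agent.ChevalleyStructure.E6Min.Adjoint
open Cfsg.Agent.H512.DFive

variable {F : Type*} [Field F]

/-- `(1, -1, i)` on the three parts -/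
def tL (i : F) : (I27 → F) →ₗ[F] (I27 → F) where
  toFun x := fun k => if ty k = 1 then i * x k else if ty k = 2 then - x k else x k
  map_add' x y := by
    funext k
    simp only [Pi.add_apply]
    split_ifs <;> ring
  map_smul' a x := by
    funext k
    simp only [Pi.smul_apply, smul_eq_mul, RingHom.id_apply]
    split_ifs <;> ring

theorem tL_tL {i j : F} (hij : i * j = 1) (x : I27 → F) : tL i (tL j x) = x := by
  funext k
  show (if ty k = 1 then i * (if ty k = 1 then j * x k else if ty k = 2 then - x k else x k) else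
    if ty k = 2 then - (if ty k = 1 then j * x k else if ty k = 2 then - x k else x k) else
      (if ty k = 1 then j * x k else if ty k = 2 then - x k else x k)) = x k
  split_ifs
  · rw [← mul_assoc, hij, one_mul]
  · rw [neg_neg]
  · rfl

theorem ty_zero_iff (k : I27) (h1 : ty k ≠ 1) (h2 : ty k ≠ 2) : k = i0 := by
  have h := decomp (F := ℚ) (e ℚ k)
  by_contra hne
  have h3 := congrFun h k
  rw [p10_e, p16_e, if_neg h1, if_neg h2, add_zero, add_zero, e_apply, if_pos rfl, Pi.smul_apply, e_apply,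
    if_neg (Ne.symm hne), e_apply, if_neg hne, smul_zero] at h3
  exact one_ne_zero h3

theorem tL_apply (i : F) (x : I27 → F) : tL i x = x i0 • e F i0 + (-1 : F) • p10 x + i • p16 x := by
  funext k
  show (if ty k = 1 then i * x k else if ty k = 2 then - x k else x k) = x i0 * e F i0 k + (-1) * p10 x k + i * p16 x k
  have hi : ty i0 = 0 := ty_i0
  rw [e_apply]
  simp only [p10, p16]
  by_cases h1 : ty k = 1
  · have hk : k ≠ i0 := fun h => by rw [h, hi] at h1; exact absurd h1 (by norm_num)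
    simp [h1, hk]
  · by_cases h2 : ty k = 2
    · have hk : k ≠ i0 := fun h => by rw [h, hi] at h2; exact absurd h2 (by norm_num)
      simp [h2, hk]
    · have hk := ty_zero_iff k h1 h2
      subst hk
      simp [hi]

/-- the element `(1, -1, i)` -/
noncomputable def tG (i : F) (hi : i * i = -1) : GL I27 F :=
  toGL (tL i) (tL (-i)) (tL_tL (by rw [mul_neg, hi, neg_neg])) (tL_tL (by rw [neg_mul, hi, neg_neg]))

theorem tG_mulVec {i : F} (hi : i * i = -1) (x : I27 → F) :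
    ((tG i hi : GL I27 F) : Matrix I27 I27 F) *ᵥ x = x i0 • e F i0 + (-1 : F) • p10 x + i • p16 x := by
  unfold tG
  rw [toGL_mulVec, tL_apply]

theorem ext_mulVec {g g' : GL I27 F}
    (h : ∀ x, (g : Matrix I27 I27 F) *ᵥ x = (g' : Matrix I27 I27 F) *ᵥ x) : g = g' := by
  apply Units.ext
  apply Matrix.toLin'.injective
  refine LinearMap.ext fun x => ?_
  rw [Matrix.toLin'_apply, Matrix.toLin'_apply]
  exact h x

theorem tG_mem (h2 : (2 : F) ≠ 0) {i : F} (hi : i * i = -1) : tG i hi ∈ E6univ F := by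
  rw [mem_E6univ_iff]
  intro x
  rw [tG_mulVec]
  apply mul_left_cancel₀ h2
  rw [two_cubicT, two_cubicT]
  obtain ⟨e1, e2, e3⟩ := comps (t := x i0) (w := (-1 : F) • p10 x) (by rw [p10_smul, p10_p10]) (s := i • p16 x)
    (by rw [p16_smul, p16_p16])
  rw [← BB_p10 (x i0 • e F i0 + (-1 : F) • p10 x + i • p16 x), e1, e2, e3, BB_smul_left, BB_smul_right, BB_p10,
    T3_smul_left, T3_smul_right, T3_symm, T3_smul_right, T3_symm]
  linear_combination (-(T3 (p10 x) (p16 x) (p16 x))) * hi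

theorem tG_sq {i : F} (hi : i * i = -1) : tG i hi * tG i hi = z0 F := by
  refine ext_mulVec fun x => ?_
  rw [Units.val_mul, ← Matrix.mulVec_mulVec, tG_mulVec, tG_mulVec, z0_mulVec]
  obtain ⟨e1, e2, e3⟩ := comps (t := x i0) (w := (-1 : F) • p10 x) (by rw [p10_smul, p10_p10]) (s := i • p16 x)
    (by rw [p16_smul, p16_p16])
  rw [e1, e2, e3, smul_smul, smul_smul, hi]
  conv_rhs => rw [decomp x]
  rw [p16_add, p16_add, p16_p16, p16_smul, p16_e, ty_i0, if_neg (by norm_num), smul_zero, zero_add]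
  have h3 : p16 (p10 x) = 0 := by
    funext k; simp only [p10, p16]
    split_ifs with a b
    · omega
    · rfl
    · rfl
  rw [h3, zero_add, two_smul, neg_one_smul]
  simp
  abel

theorem tG_comm (h2 : (2 : F) ≠ 0) {i : F} (hi : i * i = -1) {g : GL I27 F} (hg : g ∈ E6univ F)
    (hz : g * z0 F = z0 F * g) : g * tG i hi = tG i hi * g := by
  obtain ⟨a, -, hae, hten, -⟩ := cent_act h2 hg hz
  refine ext_mulVec fun x => ?_
  rw [Units.val_mul, Units.val_mul, ← Matrix.mulVec_mulVec, ← Matrix.mulVec_mulVec, tG_mulVec, tG_mulVec]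
  set M : Matrix I27 I27 F := (g : Matrix I27 I27 F) with hM
  have hx : M *ᵥ x = (x i0 * a) • e F i0 + M *ᵥ p10 x + M *ᵥ p16 x := by
    conv_lhs => rw [decomp x]
    rw [Matrix.mulVec_add, Matrix.mulVec_add, Matrix.mulVec_smul, hae, smul_smul]
  obtain ⟨e1, e2, e3⟩ := comps (t := x i0 * a) (w := M *ᵥ p10 x) (hten _ (p10_p10 x)) (s := M *ᵥ p16 x)
    (by rw [hM, cent_p16 h2 hz, p16_p16])
  rw [hx, e1, e2, e3, Matrix.mulVec_add, Matrix.mulVec_add, Matrix.mulVec_smul, Matrix.mulVec_smul,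
    Matrix.mulVec_smul, hae, smul_smul]

/-- the element in the finite group -/
theorem exists_t {F : Type} [Field F] [Fintype F] (h4 : Fintype.card F % 4 = 1) {z : Zgrp F} (hzz : z * z = 1)
    (hrk : (((z : GL I27 F) : Matrix I27 I27 F) - 1).rank = 16) :
    ∃ t : Zgrp F, t * t = z ∧ ∀ g, g * z = z * g → g * t = t * g := by
  have h2 : (2 : F) ≠ 0 := by
    intro h
    have h5 : ringChar F = 2 := by
      have h6 : ringChar F ∣ 2 := (ringChar.spec F 2).1 (by exact_mod_cast h)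
      rcases (Nat.dvd_prime Nat.prime_two).1 h6 with h7 | h7
      · exact absurd h7 (CharP.ringChar_ne_one (R := F))
      · exact h7
    have h6 := FiniteField.even_card_of_char_two h5
    omega
  have ho : Odd (Fintype.card F) := Nat.odd_iff.2 (by omega)
  obtain ⟨x, hx⟩ := conj_z0 ho h2 hzz hrk
  obtain ⟨i, hi⟩ : ∃ i : F, i * i = -1 := by
    obtain ⟨i, hi⟩ := FiniteField.isSquare_neg_one_iff.2 (show Fintype.card F % 4 ≠ 3 by omega)
    exact ⟨i, hi.symm⟩
  have hcard : 3 ≤ Fintype.card F := by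
    have := Fintype.one_lt_card (α := F)
    omega
  obtain ⟨t₀, ht₀⟩ : ∃ t₀ : Zgrp F, (t₀ : GL I27 F) = tG i hi :=
    ⟨⟨tG i hi, by rw [Zgrp_eq hcard]; exact tG_mem h2 hi⟩, rfl⟩
  have htt : t₀ * t₀ = x * z * x⁻¹ := by
    apply Subtype.ext
    rw [hx, Subgroup.coe_mul, ht₀]
    exact tG_sq hi
  refine ⟨x⁻¹ * t₀ * x, ?_, fun g hg => ?_⟩
  · calc x⁻¹ * t₀ * x * (x⁻¹ * t₀ * x) = x⁻¹ * (t₀ * t₀) * x := by group
      _ = z := by rw [htt]; group
  · have h5 : (x * g * x⁻¹) * t₀ = t₀ * (x * g * x⁻¹) := by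
      apply Subtype.ext
      show ((x * g * x⁻¹ : Zgrp F) : GL I27 F) * (t₀ : GL I27 F) = (t₀ : GL I27 F) * ((x * g * x⁻¹ : Zgrp F) : GL I27 F)
      rw [ht₀]
      refine tG_comm h2 hi (Zgrp_le F (x * g * x⁻¹).2) ?_
      rw [← hx, ← Subgroup.coe_mul, ← Subgroup.coe_mul]
      congr 1
      calc (x * g * x⁻¹) * (x * z * x⁻¹) = x * (g * z) * x⁻¹ := by group
        _ = (x * z * x⁻¹) * (x * g * x⁻¹) := by rw [hg]; group
    calc g * (x⁻¹ * t₀ * x) = x⁻¹ * ((x * g * x⁻¹) * t₀) * x := by group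
      _ = x⁻¹ * t₀ * x * g := by rw [h5]; group

end Elt

section Row

open Cfsg Cfsg.Lie
open Cfsg.Agent.ChevalleyStructure.E6Min.Tables Cfsg.Agent.ChevalleyStructure.E6Min.Basic
  Cfsg.Agent.ChevalleyStructure.E6Min.Adjoint
open Cfsg.Agent.H129.Co3

/-- no configuration in the 27-dimensional group, `q ≡ 1 mod 4` -/
theorem no_zgrp_four {K : Type} [Field K] [Fintype K] (h4 : Fintype.card K % 4 = 1)
    {P N0 : Subgroup ↥(⊤ : Subgroup ↥(Zgrp K))} {z s : ↥(⊤ : Subgroup ↥(Zgrp K))}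
    {ψ : ↥(normalizer (P : Set ↥(⊤ : Subgroup ↥(Zgrp K)))) →* Equiv.Perm (Fin 6)} (C : CB P N0 z s ψ) : False := by
  obtain ⟨p, hpK⟩ := CharP.exists K
  have hpp : Fact p.Prime := ⟨CharP.char_is_prime K p⟩
  have hp2 : p ≠ 2 := by
    rintro rfl
    obtain ⟨n, -, hn⟩ := FiniteField.card K 2
    have h5 : 2 ∣ Fintype.card K := by
      rw [hn]
      exact dvd_pow_self 2 n.pos.ne'
    omega
  have h2 : (2 : K) ≠ 0 := by exact_mod_cast cast_ne (K := K) p Nat.prime_two hp2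
  obtain ⟨A, E, x, r, ψ', Kt⟩ := Cfsg.Agent.H415.C3.exists_kit C
  obtain ⟨h16, -, -⟩ := setup p hp2 Kt
  have hzz : z * z = 1 := C.z_sq
  rw [finrank_eig h2 ⊤ hzz] at h16
  have hzz' : (z : ↥(Zgrp K)) * (z : ↥(Zgrp K)) = 1 := by rw [← Subgroup.coe_mul, hzz, Subgroup.coe_one]
  obtain ⟨t, ht, hc⟩ := exists_t h4 hzz' h16
  refine t4_false C (t := ⟨t, Subgroup.mem_top t⟩) (Subtype.ext ht) fun g hg => Subtype.ext ?_
  exact hc g (congrArg Subtype.val hg)

/-- **No configuration in `E₆(q)`, `q ≡ 1 mod 4`.** -/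
theorem no_e6_four {K : Type} [Field K] [Fintype K] (h4 : Fintype.card K % 4 = 1) {G : Type u} [Group G]
    (e : G ≃* ↥(chevE6.group K)) {P N0 : Subgroup G} {z s : G}
    {ψ : ↥(normalizer (P : Set G)) →* Equiv.Perm (Fin 6)} (C : CB P N0 z s ψ) : False := by
  obtain ⟨Ph, Nh, zh, sh, ψh, Ch⟩ := lift_cb (S := ⊤)
    (((e.symm : ↥(chevE6.group K) →* G).comp (ad K)).comp (⊤ : Subgroup ↥(Zgrp K)).subtype) (fun y => by
      obtain ⟨g, hg⟩ := ad_surjective (F := K) (e y)
      refine ⟨⟨g, trivial⟩, ?_⟩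
      show e.symm (ad K g) = y
      rw [hg, e.symm_apply_apply]) (fun g hg => e.symm.injective (by rw [map_one]; exact hg)) C
  exact no_zgrp_four h4 Ch

end Row

end Cfsg.Agent.H650.Co3
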